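import Cfsg.Agent.H464.RM.Tools

/-!
# Hall `{s, t}`-subgroups with a normal Sylow `t`-subgroup: small orbits (helper180)

* `no_orb` : `t` does not divide `s ^ k - 1` (`k ≤ a`), `s ^ (w + 1)` does not divide `t ^ b - 1`, `s ^ (a - w)` does not
  divide `|C(y)|` for `y` of order `t`;
* `no_orb_z` : the same with `t ^ b - t`, for a nonabelian Sylow `t`-subgroup of order `t ^ 3`.
-/

set_option autoImplicit false

namespace Cfsg.Agent.H180.RM

open Subgroup Cfsg Cfsg.Agent.H571.DExt Cfsg.Agent.H988.CPi Cfsg.Agent.H555.RV Cfsg.Agent.H464.RM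
open Cfsg.Agent.H171.Odd (Inv1 not_dvd_index_map card_pgroup card_sylow exists_small_orbit)

universe u

variable {S : Type u} [Group S]

/-- the two Sylow subgroups -/
theorem exists_syl [Finite S] {s t a b m : ℕ} (hs : s.Prime) (ht : t.Prime) (hst : s ≠ t)
    (hS : Nat.card S = s ^ a * t ^ b * m) (h2 : ¬ s ∣ m) (hm : ¬ t ∣ m)
    (hn : ∀ k, 1 ≤ k → k ≤ a → ¬ t ∣ s ^ k - 1) {K : Subgroup S} (hK : IsPiHall ({s, t} : Set ℕ) K) :
    ∃ T P : Subgroup S, IsPGroup t T ∧ ¬ t ∣ T.index ∧ Nat.card T = t ^ b ∧ IsPGroup s P ∧ s ^ a ∣ Nat.card P ∧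
      P ≤ normalizer (T : Set S) := by
  have hft : Fact t.Prime := ⟨ht⟩
  have hfs : Fact s.Prime := ⟨hs⟩
  have hcK := card_of_hall hs ht hS h2 hm hK
  obtain ⟨T⟩ : Nonempty (Sylow t K) := inferInstance
  have hTn := normal_of_count hs hcK hn T
  set T' : Subgroup S := (T : Subgroup K).map K.subtype with hT'
  have hT'i : ¬ t ∣ T'.index := not_dvd_index_map (by simp) hK T
  have hT'p : IsPGroup t T' := T.isPGroup'.map _
  have h1 : K ≤ normalizer (T' : Set S) := by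
    intro x hx
    apply mem_normalizer_fintype
    rintro y ⟨z, hz, rfl⟩
    exact ⟨⟨x, hx⟩ * z * ⟨x, hx⟩⁻¹, hTn.conj_mem z hz _, by simp⟩
  obtain ⟨P⟩ : Nonempty (Sylow s K) := inferInstance
  set P' : Subgroup S := (P : Subgroup K).map K.subtype with hP'
  have hP'i : ¬ s ∣ P'.index := not_dvd_index_map (by simp) hK P
  have hP'p : IsPGroup s P' := P.isPGroup'.map _
  have hP'K : P' ≤ K := map_subtype_le _
  have hsa : s ^ a ∣ Nat.card P' := card_sylow (by rw [hS]; exact ((dvd_mul_right _ _).trans (dvd_mul_right _ _))) hP'i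
  refine ⟨T', P', hT'p, hT'i, ?_, hP'p, hsa, hP'K.trans h1⟩
  have htb : ¬ t ^ (b + 1) ∣ Nat.card S := by
    rw [hS, show s ^ a * t ^ b * m = t ^ b * (s ^ a * m) by ring, pow_succ]
    intro h3
    have h4 := Nat.dvd_of_mul_dvd_mul_left (pow_pos ht.pos b) h3
    rcases ht.dvd_mul.1 h4 with h5 | h5
    · exact hst ((Nat.prime_dvd_prime_iff_eq ht hs).1 (ht.dvd_of_dvd_pow h5)).symm
    · exact hm h5
  obtain ⟨k, hk, hc⟩ := card_pgroup htb hT'p
  have h3 : t ^ b ∣ Nat.card T' := card_sylow (by rw [hS]; exact ⟨s ^ a * m, by ring⟩) hT'i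
  rw [hc] at h3 ⊢
  have h4 := (Nat.pow_dvd_pow_iff_le_right ht.one_lt).1 h3
  rw [le_antisymm hk h4]

/-- an element of order `t` in the centralizer -/
theorem exists_power [Finite S] {t : ℕ} (ht : t.Prime) {T : Subgroup S} (hT : IsPGroup t T) {y : S} (hy : y ∈ T)
    (hy1 : y ≠ 1) : ∃ z : S, z ∈ zpowers y ∧ orderOf z = t := by
  obtain ⟨n, hn⟩ := hT ⟨y, hy⟩
  have hn' : y ^ t ^ n = 1 := congrArg Subtype.val hn
  obtain ⟨j, -, hj⟩ := (Nat.dvd_prime_pow ht).1 (orderOf_dvd_of_pow_eq_one hn')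
  rcases Nat.eq_zero_or_pos j with h | h
  · rw [h, pow_zero, orderOf_eq_one_iff] at hj
    exact absurd hj hy1
  · obtain ⟨i, rfl⟩ := Nat.exists_eq_succ_of_ne_zero h.ne'
    refine ⟨y ^ t ^ i, Subgroup.pow_mem _ (mem_zpowers y) _, ?_⟩
    rw [orderOf_pow, hj, Nat.gcd_eq_right (pow_dvd_pow t (Nat.le_succ i)), Nat.pow_div (Nat.le_succ i) ht.pos]
    simp

theorem cent_le_of_mem {y z : S} (h : z ∈ zpowers y) : centralizer ({y} : Set S) ≤ centralizer ({z} : Set S) := by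
  intro g hg
  rw [mem_centralizer_singleton_iff] at hg ⊢
  obtain ⟨k, rfl⟩ := mem_zpowers_iff.1 h
  exact ((show Commute g y from hg).zpow_right k).eq

theorem no_orb [Finite S] {s t a b m w : ℕ} (hs : s.Prime) (ht : t.Prime) (hst : s ≠ t)
    (hS : Nat.card S = s ^ a * t ^ b * m) (h2 : ¬ s ∣ m) (hm : ¬ t ∣ m)
    (hn : ∀ k, 1 ≤ k → k ≤ a → ¬ t ∣ s ^ k - 1) (hw : ¬ s ^ (w + 1) ∣ t ^ b - 1) (hwa : w ≤ a)
    (hc : ∀ y : S, orderOf y = t → ¬ s ^ (a - w) ∣ Nat.card (centralizer ({y} : Set S)))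
    (K : Subgroup S) : ¬ IsPiHall ({s, t} : Set ℕ) K := by
  intro hK
  have hfs : Fact s.Prime := ⟨hs⟩
  obtain ⟨T, P, hT, -, hcT, hP, hcP, hPT⟩ := exists_syl hs ht hst hS h2 hm hn hK
  obtain ⟨y, hy, hy1, hd⟩ := exists_small_orbit (R1 := ⊥) (w := w) hP hPT (by
    intro g _
    apply mem_normalizer_fintype
    intro n hn
    rw [SetLike.mem_coe, mem_bot] at hn ⊢
    rw [hn]
    group) bot_le (by rw [hcT, card_bot]; exact hw)
  rw [mem_bot] at hy1
  obtain ⟨z, hz, hzt⟩ := exists_power ht hT hy hy1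
  apply hc z hzt
  have h1 : s ^ (a - w) ∣ Nat.card ↥(P ⊓ centralizer ({y} : Set S)) := by
    apply Nat.dvd_of_mul_dvd_mul_right (pow_pos hs.pos w)
    rw [← pow_add, Nat.sub_add_cancel hwa]
    exact hcP.trans hd
  exact h1.trans ((card_dvd_of_le inf_le_right).trans (card_dvd_of_le (cent_le_of_mem hz)))

theorem no_orb_z [Finite S] {s t a m w : ℕ} (hs : s.Prime) (ht : t.Prime) (hst : s ≠ t)
    (hS : Nat.card S = s ^ a * t ^ 3 * m) (h2 : ¬ s ∣ m) (hm : ¬ t ∣ m)
    (hn : ∀ k, 1 ≤ k → k ≤ a → ¬ t ∣ s ^ k - 1) (hw : ¬ s ^ (w + 1) ∣ t ^ 3 - t) (hwa : w ≤ a)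
    (hc : ∀ y : S, orderOf y = t → ¬ s ^ (a - w) ∣ Nat.card (centralizer ({y} : Set S)))
    {y₀ : S} (hy₀ : orderOf y₀ = t) (hcy₀ : ¬ t ^ 3 ∣ Nat.card (centralizer ({y₀} : Set S)))
    (K : Subgroup S) : ¬ IsPiHall ({s, t} : Set ℕ) K := by
  intro hK
  have hfs : Fact s.Prime := ⟨hs⟩
  have hft : Fact t.Prime := ⟨ht⟩
  obtain ⟨T, P, hT, hTi, hcT, hP, hcP, hPT⟩ := exists_syl hs ht hst hS h2 hm hn hK
  -- `T` is not abelian
  have hna : ∃ x ∈ T, ∃ y ∈ T, x * y ≠ y * x := by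
    by_contra hcon
    push Not at hcon
    apply hcy₀
    have hyp : IsPGroup t (zpowers y₀) := IsPGroup.of_card (n := 1) (by rw [Nat.card_zpowers, hy₀, pow_one])
    obtain ⟨Y, hY⟩ := hyp.exists_le_sylow
    obtain ⟨g, hg⟩ := MulAction.exists_smul_eq S Y (hT.toSylow hTi)
    have h3 : (Y : Subgroup S).map (MulAut.conj g).toMonoidHom = T := by
      have := congrArg (fun X : Sylow t S => (X : Subgroup S)) hg
      rw [← IsPGroup.toSylow_coe hT hTi, ← this]
      rfl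
    have hyT : g * y₀ * g⁻¹ ∈ T := by
      rw [← h3]
      exact ⟨y₀, hY (mem_zpowers y₀), rfl⟩
    rw [← hcT, ← cent_conj_card (x := y₀) (g := g)]
    apply card_dvd_of_le
    intro x hx
    rw [mem_centralizer_singleton_iff]
    exact hcon x hx _ hyT
  -- the centre of `T`
  set Z : Subgroup S := (center T).map T.subtype with hZ
  have hZT : Z ≤ T := map_subtype_le _
  have hcZ0 : Nat.card Z = Nat.card (center T) := card_map_of_injective T.subtype_injective
  have hnt : Nontrivial T := by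
    rw [nontrivial_iff_ne_bot]
    rintro rfl
    rw [card_bot] at hcT
    have := Nat.one_lt_pow (n := 3) (by norm_num) ht.one_lt
    omega
  have hcZ : Nat.card (center T) = t := by
    obtain ⟨k, hk, hk'⟩ := (Nat.dvd_prime_pow ht).1 (hcT ▸ (center T).card_subgroup_dvd_card)
    have h1 : k ≠ 0 := by
      rintro rfl
      have := hT.bot_lt_center
      rw [pow_zero] at hk'
      rw [card_eq_one.1 hk'] at this
      exact lt_irrefl _ this
    have h3 : k ≠ 3 := by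
      rintro rfl
      obtain ⟨x, hx, y, hy, hxy⟩ := hna
      have h4 : center T = ⊤ := by
        apply Subgroup.eq_top_of_card_eq
        rw [hk', hcT]
      have h5 : (⟨x, hx⟩ : T) ∈ center T := by rw [h4]; trivial
      exact hxy (congrArg Subtype.val ((mem_center_iff.1 h5 ⟨y, hy⟩).symm))
    have h4 : k ≠ 2 := by
      rintro rfl
      -- the quotient has order `t`
      have h6 : Nat.card (T ⧸ center T) = t := by
        have h5 := (center T).card_mul_index
        rw [hk', hcT] at h5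
        have h7 : (center T).index = Nat.card (T ⧸ center T) := rfl
        rw [← h7]
        have h8 : t ^ 2 * (center T).index = t ^ 2 * t := by rw [h5]; ring
        exact Nat.eq_of_mul_eq_mul_left (pow_pos ht.pos 2) h8
      have h7 : IsCyclic (T ⧸ center T) := isCyclic_of_prime_card h6
      obtain ⟨x, hx, y, hy, hxy⟩ := hna
      have h8 := commutative_of_cyclic_center_quotient (QuotientGroup.mk' (center T)) (by
        rw [QuotientGroup.ker_mk']) (⟨x, hx⟩ : T) ⟨y, hy⟩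
      exact hxy (congrArg Subtype.val h8)
    obtain rfl : k = 1 := by omega
    rw [hk', pow_one]
  have hPZ : P ≤ normalizer (Z : Set S) := by
    intro g hg
    apply mem_normalizer_fintype
    rintro _ ⟨z, hz, rfl⟩
    have hgT : ∀ x ∈ T, g * x * g⁻¹ ∈ T := fun x hx => (mem_normalizer_iff.1 (hPT hg) x).1 hx
    refine ⟨⟨g * z * g⁻¹, hgT _ z.2⟩, ?_, rfl⟩
    rw [SetLike.mem_coe, mem_center_iff]
    intro w
    apply Subtype.ext
    have h1 : g⁻¹ * (w : S) * g ∈ T := by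
      have := (mem_normalizer_iff.1 (inv_mem (hPT hg)) (w : S)).1 w.2
      rwa [inv_inv] at this
    have h2 : (⟨g⁻¹ * w * g, h1⟩ : T) * z = z * ⟨g⁻¹ * w * g, h1⟩ := mem_center_iff.1 hz _
    have h3 : g⁻¹ * (w : S) * g * z = z * (g⁻¹ * w * g) := congrArg Subtype.val h2
    show (w : S) * (g * z * g⁻¹) = g * z * g⁻¹ * w
    calc (w : S) * (g * z * g⁻¹) = g * (g⁻¹ * w * g * z) * g⁻¹ := by group
      _ = g * (z * (g⁻¹ * w * g)) * g⁻¹ := by rw [h3]
      _ = g * z * g⁻¹ * w := by group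
  obtain ⟨y, hy, hy1, hd⟩ := exists_small_orbit (R1 := Z) (w := w) hP hPT hPZ hZT
    (by rw [hcT, hcZ0, hcZ]; exact hw)
  have hy2 : y ≠ 1 := by
    rintro rfl
    exact hy1 (one_mem _)
  obtain ⟨z, hz, hzt⟩ := exists_power ht hT hy hy2
  apply hc z hzt
  have h1 : s ^ (a - w) ∣ Nat.card ↥(P ⊓ centralizer ({y} : Set S)) := by
    apply Nat.dvd_of_mul_dvd_mul_right (pow_pos hs.pos w)
    rw [← pow_add, Nat.sub_add_cancel hwa]
    exact hcP.trans hd
  exact h1.trans ((card_dvd_of_le inf_le_right).trans (card_dvd_of_le (cent_le_of_mem hz)))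

end Cfsg.Agent.H180.RM
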